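import Cfsg.Agent.Nodes.TypeD
import Cfsg.Agent.H53.HC.WPerm

/-!
# S4816, `POmega⁺`: Weyl group elements of type `D_{n+2}` permuting the simple roots of a chain (helper567)

`J = {0, …, n}` (`A_{n+1}`) or `J = {1, …, n}` (`A_n`), `w` permutes the simple roots of `J`: `w = 1` or `w` reverses the chain.

* `exists_sg` : the signed permutation of `w`;
* `inv_four` : `w` fixes `4 ω_{n+1}` modulo `4 Q`;
* `rev_max`, `rev_sub`.
-/

set_option autoImplicit false
set_option linter.unusedSectionVars false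

namespace Cfsg.Agent.H567.RIM.DComb

open CoxeterSystem Cfsg.Agent.ChevalleyStructure.CoxeterGeom Cfsg.Agent.Tits.Roots Cfsg.Agent.Nodes.TypeD
  Cfsg.Agent.Nodes.Reps Cfsg.Agent.Nodes.BNOf Cfsg.Agent.Nodes.StabComb Cfsg.Agent.H53.HC
open Cfsg.Agent.Nodes.TypeC (wt ng wt_apply wt_ng)

variable {n : ℕ} {W : Type*} [Group W] {cs : CoxeterSystem (M n) W}

/-- the signed permutation of `w` -/
theorem exists_sg (w : W) : ∃ σ : Fin (n + 2) × Bool → Fin (n + 2) × Bool, (∀ x, σ (ng x) = ng (σ x)) ∧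
    (∀ x y, (σ x).1 = (σ y).1 ↔ x.1 = y.1) ∧
    ∀ x a b, ee x = wt a + wt b → ee (rep cs (isCartan n) w x) = wt (σ a) + wt (σ b) := by
  induction w using cs.simple_induction_left with
  | one => exact ⟨id, fun _ => rfl, fun _ _ => Iff.rfl, fun x a b h => by rw [map_one, Module.End.one_apply]; exact h⟩
  | mul_simple_left w j ih =>
    obtain ⟨σ, h1, h2, h3⟩ := ih
    refine ⟨fun x => sg j (σ x), fun x => ?_, fun x y => ?_, fun x a b h => ?_⟩
    · show sg j (σ (ng x)) = ng (sg j (σ x))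
      rw [h1, sg_ng]
    · show (sg j (σ x)).1 = (sg j (σ y)).1 ↔ _
      rw [sg_fst_eq, h2]
    · rw [rep_mul_apply, rep_simple, ee_refl_of (h3 x a b h)]

/-- `w` fixes the vectors with pairings in `4 ℤ` modulo `4 Q` -/
theorem inv_four {v : Fin (n + 2) → ℤ} (hv : ∀ i, (4 : ℤ) ∣ pairing (A n) i v) (w : W) :
    ∃ y : Fin (n + 2) → ℤ, rep cs (isCartan n) w v = v + (4 : ℤ) • y := by
  induction w using cs.simple_induction_left with
  | one => exact ⟨0, by rw [map_one, Module.End.one_apply, smul_zero, add_zero]⟩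
  | mul_simple_left w j ih =>
    obtain ⟨y, hy⟩ := ih
    obtain ⟨c, hc⟩ := hv j
    refine ⟨refl (A n) j y - Pi.single j c, ?_⟩
    rw [rep_mul_apply, rep_simple, hy, map_add, map_smul, refl_apply (A n) j v, hc]
    funext k
    simp only [Pi.add_apply, Pi.sub_apply, Pi.smul_apply, smul_eq_mul, Pi.single_apply]
    split_ifs <;> ring

/-- the sum of the `ε`-coordinates is even -/
theorem sum_ee_even (x : Fin (n + 2) → ℤ) : (2 : ℤ) ∣ ∑ k, ee x k := by
  have h1 : ∑ k, ee x k = ∑ j, x j * ∑ k, bt j k := by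
    unfold ee
    simp only [Finset.sum_apply, Pi.smul_apply, smul_eq_mul]
    rw [Finset.sum_comm]
    exact Finset.sum_congr rfl fun j _ => (Finset.mul_sum _ _ _).symm
  rw [h1]
  refine Finset.dvd_sum fun j _ => Dvd.dvd.mul_left ?_ _
  unfold bt
  simp only [Pi.add_apply, Finset.sum_add_distrib, wt, Finset.sum_pi_single', Finset.mem_univ, if_true]
  unfold nx
  split_ifs <;> norm_num

/-- the chain `{a, …, n}` -/
def Ch (n a : ℕ) : Set (Fin (n + 2)) := {j | a ≤ (j : ℕ) ∧ (j : ℕ) ≤ n}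

theorem nx_of_le {j : Fin (n + 2)} (hj : (j : ℕ) ≤ n) : nx j = (⟨(j : ℕ) + 1, by omega⟩, false) := by
  unfold nx
  rw [dif_pos (by omega)]

theorem step {a : ℕ} {w : W} (hw : ∀ i ∈ Ch n a, ∃ k ∈ Ch n a, rep cs (isCartan n) w (sr i) = sr k)
    {σ : Fin (n + 2) × Bool → Fin (n + 2) × Bool} (h1 : ∀ x, σ (ng x) = ng (σ x))
    (h2 : ∀ x y, (σ x).1 = (σ y).1 ↔ x.1 = y.1)
    (h3 : ∀ x a b, ee x = wt a + wt b → ee (rep cs (isCartan n) w x) = wt (σ a) + wt (σ b))
    (j : ℕ) (haj : a ≤ j) (hjn : j ≤ n) : ∃ k : ℕ, a ≤ k ∧ ∃ hk : k ≤ n,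
      (σ (⟨j, by omega⟩, true) = (⟨k, by omega⟩, true) ∧ σ (⟨j + 1, by omega⟩, true) = (⟨k + 1, by omega⟩, true)) ∨
      (σ (⟨j, by omega⟩, true) = (⟨k + 1, by omega⟩, false) ∧ σ (⟨j + 1, by omega⟩, true) = (⟨k, by omega⟩, false)) := by
  obtain ⟨k, hk, e⟩ := hw ⟨j, by omega⟩ ⟨haj, hjn⟩
  have e1 := h3 (sr ⟨j, by omega⟩) (⟨j, by omega⟩, true) (nx ⟨j, by omega⟩) (ee_sr _)
  rw [e, ee_sr, nx_of_le (j := ⟨j, by omega⟩) hjn] at e1
  have e2 : ((⟨j + 1, by omega⟩, false) : Fin (n + 2) × Bool) = ng (⟨j + 1, by omega⟩, true) := rfl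
  have e3 : bt k = wt (k, true) + wt (nx k) := rfl
  rw [e3, nx_of_le hk.2] at e1
  change wt (k, true) + wt _ = wt (σ (⟨j, _⟩, true)) + wt (σ (⟨j + 1, _⟩, false)) at e1
  rw [e2, h1] at e1
  refine ⟨k, hk.1, hk.2, ?_⟩
  have hok : Ok (k, true) ((⟨(k : ℕ) + 1, by have := hk.2; omega⟩, false) : Fin (n + 2) × Bool) := by
    unfold Ok
    simp [Fin.ext_iff]
  have hok' : Ok (σ (⟨j, by omega⟩, true)) (ng (σ ((⟨j + 1, by omega⟩, true) : Fin (n + 2) × Bool))) := by
    unfold Ok
    intro h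
    rw [Cfsg.Agent.Nodes.TypeC.ng_fst, h2] at h
    simp [Fin.ext_iff] at h
  rcases wt_add_eq hok hok' e1 with ⟨c1, c2⟩ | ⟨c1, c2⟩
  · left
    refine ⟨c1.symm, ?_⟩
    have := congrArg ng c2
    rw [Cfsg.Agent.Nodes.TypeC.ng_ng] at this
    exact this.symm
  · right
    refine ⟨c2.symm, ?_⟩
    have := congrArg ng c1
    rw [Cfsg.Agent.Nodes.TypeC.ng_ng] at this
    exact this.symm

/-- identity or reversal on the signed indices of the chain -/
theorem id_or_rev {a : ℕ} (ha : a ≤ n) {w : W}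
    (hw : ∀ i ∈ Ch n a, ∃ k ∈ Ch n a, rep cs (isCartan n) w (sr i) = sr k)
    {σ : Fin (n + 2) × Bool → Fin (n + 2) × Bool} (h1 : ∀ x, σ (ng x) = ng (σ x))
    (h2 : ∀ x y, (σ x).1 = (σ y).1 ↔ x.1 = y.1)
    (h3 : ∀ x a b, ee x = wt a + wt b → ee (rep cs (isCartan n) w x) = wt (σ a) + wt (σ b)) :
    (∀ i : ℕ, a ≤ i → ∀ hi : i ≤ n + 1, σ (⟨i, by omega⟩, true) = (⟨i, by omega⟩, true)) ∨
      ∀ i : ℕ, ∀ hai : a ≤ i, ∀ hi : i ≤ n + 1, σ (⟨i, by omega⟩, true) = (⟨n + 1 + a - i, by omega⟩, false) := by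
  have hs := step hw h1 h2 h3
  obtain ⟨k₀, hk1, hk2, h0⟩ := hs a le_rfl ha
  rcases h0 with ⟨c1, c2⟩ | ⟨c1, c2⟩
  · left
    have key : ∀ d : ℕ, ∀ hd : a + d ≤ n + 1, ∃ hc : k₀ + d ≤ n + 1,
        σ (⟨a + d, by omega⟩, true) = (⟨k₀ + d, by omega⟩, true) := by
      intro d
      induction d with
      | zero => intro hd; exact ⟨by omega, c1⟩
      | succ d ih =>
        intro hd
        obtain ⟨hc, e⟩ := ih (by omega)
        obtain ⟨k, hk3, hk4, h4⟩ := hs (a + d) (by omega) (by omega)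
        rcases h4 with ⟨c3, c4⟩ | ⟨c3, c4⟩
        · rw [e, Prod.mk.injEq, Fin.mk.injEq] at c3
          refine ⟨by omega, ?_⟩
          have e5 : a + (d + 1) = a + d + 1 := rfl
          have e6 : k₀ + (d + 1) = k + 1 := by omega
          simp only [e5, e6]
          exact c4
        · rw [e, Prod.mk.injEq] at c3
          exact absurd c3.2 (by decide)
    obtain ⟨hc, -⟩ := key (n + 1 - a) (by omega)
    have hk0 : k₀ = a := by omega
    subst hk0
    intro i hai hi
    obtain ⟨_, e⟩ := key (i - k₀) (by omega)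
    have e1 : k₀ + (i - k₀) = i := by omega
    simp only [e1] at e
    exact e
  · right
    have key : ∀ d : ℕ, ∀ hd : a + d ≤ n + 1, ∃ hc : a + d ≤ k₀ + 1,
        σ (⟨a + d, by omega⟩, true) = (⟨k₀ + 1 - d, by omega⟩, false) := by
      intro d
      induction d with
      | zero => intro hd; exact ⟨by omega, c1⟩
      | succ d ih =>
        intro hd
        obtain ⟨hc, e⟩ := ih (by omega)
        obtain ⟨k, hk3, hk4, h4⟩ := hs (a + d) (by omega) (by omega)
        rcases h4 with ⟨c3, c4⟩ | ⟨c3, c4⟩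
        · rw [e, Prod.mk.injEq] at c3
          exact absurd c3.2 (by decide)
        · rw [e, Prod.mk.injEq, Fin.mk.injEq] at c3
          refine ⟨by omega, ?_⟩
          have e5 : a + (d + 1) = a + d + 1 := rfl
          have e6 : k₀ + 1 - (d + 1) = k := by omega
          simp only [e5, e6]
          exact c4
    obtain ⟨hc, -⟩ := key (n + 1 - a) (by omega)
    have hk0 : k₀ = n := by omega
    subst hk0
    intro i hai hi
    obtain ⟨_, e⟩ := key (i - a) (by omega)
    have e1 : a + (i - a) = i := by omega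
    have e2 : k₀ + 1 - (i - a) = k₀ + 1 + a - i := by omega
    simp only [e1, e2] at e
    exact e

/-- the identity on signed indices -/
theorem eq_one_of_sg {w : W} {σ : Fin (n + 2) × Bool → Fin (n + 2) × Bool}
    (h3 : ∀ x a b, ee x = wt a + wt b → ee (rep cs (isCartan n) w x) = wt (σ a) + wt (σ b)) (h1 : ∀ x, σ (ng x) = ng (σ x))
    (h : ∀ i, σ (i, true) = (i, true)) : w = 1 := by
  have hid : ∀ x, σ x = x := by
    rintro ⟨i, s⟩
    cases s
    · have e : ((i, false) : Fin (n + 2) × Bool) = ng (i, true) := rfl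
      rw [e, h1, h]
    · exact h i
  refine eq_one_of_nonneg (cs := cs) (h := isCartan n) fun i => ?_
  have e := h3 (sr i) (i, true) (nx i) (ee_sr i)
  rw [hid, hid] at e
  have e2 : rep cs (isCartan n) w (sr i) = sr i := ee_injective (e.trans (ee_sr i).symm)
  rw [e2]
  exact sr_nonneg i

/-- the element reverses the chain -/
theorem rev_of_sg {a : ℕ} {w : W} {σ : Fin (n + 2) × Bool → Fin (n + 2) × Bool}
    (h3 : ∀ x a b, ee x = wt a + wt b → ee (rep cs (isCartan n) w x) = wt (σ a) + wt (σ b)) (h1 : ∀ x, σ (ng x) = ng (σ x))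
    (h : ∀ i : ℕ, ∀ hai : a ≤ i, ∀ hi : i ≤ n + 1, σ (⟨i, by omega⟩, true) = (⟨n + 1 + a - i, by omega⟩, false))
    (j : ℕ) (haj : a ≤ j) (hjn : j ≤ n) :
    rep cs (isCartan n) w (sr ⟨j, by omega⟩) = sr ⟨n + a - j, by omega⟩ := by
  apply ee_injective
  have e := h3 (sr ⟨j, by omega⟩) (⟨j, by omega⟩, true) (nx ⟨j, by omega⟩) (ee_sr _)
  rw [nx_of_le (j := ⟨j, by omega⟩) hjn] at e
  have e2 : ((⟨j + 1, by omega⟩, false) : Fin (n + 2) × Bool) = ng (⟨j + 1, by omega⟩, true) := rfl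
  change _ = _ + wt (σ (⟨j + 1, _⟩, false)) at e
  rw [e2, h1, h j haj (by omega), h (j + 1) (by omega) (by omega)] at e
  rw [e, ee_sr]
  unfold bt
  rw [nx_of_le (j := ⟨n + a - j, by omega⟩) (show n + a - j ≤ n by omega)]
  refine (add_comm (wt _) (wt _)).trans ?_
  have e4 : (⟨n + 1 + a - (j + 1), by omega⟩ : Fin (n + 2)) = ⟨n + a - j, by omega⟩ := by
    apply Fin.ext
    show n + 1 + a - (j + 1) = n + a - j
    omega
  have e5 : (⟨n + 1 + a - j, by omega⟩ : Fin (n + 2)) = ⟨n + a - j + 1, by omega⟩ := by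
    apply Fin.ext
    show n + 1 + a - j = n + a - j + 1
    omega
  rw [e4, e5]
  rfl

/-- **`J = {0, …, n}`.** -/
theorem rev_max {w : W} (hw : ∀ i ∈ Ch n 0, ∃ k ∈ Ch n 0, rep cs (isCartan n) w (sr i) = sr k) (hw1 : w ≠ 1)
    (j : ℕ) (hjn : j ≤ n) : rep cs (isCartan n) w (sr ⟨j, by omega⟩) = sr ⟨n - j, by omega⟩ := by
  obtain ⟨σ, h1, h2, h3⟩ := exists_sg (cs := cs) w
  rcases id_or_rev (Nat.zero_le n) hw h1 h2 h3 with h | h
  · exact absurd (eq_one_of_sg h3 h1 fun i => h i (Nat.zero_le _) (by omega)) hw1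
  · exact rev_of_sg (a := 0) h3 h1 h j (Nat.zero_le _) hjn

/-- **`J = {1, …, n}`.** -/
theorem rev_sub (hn : 1 ≤ n) {w : W} (hw : ∀ i ∈ Ch n 1, ∃ k ∈ Ch n 1, rep cs (isCartan n) w (sr i) = sr k) (hw1 : w ≠ 1)
    (j : ℕ) (hj : 1 ≤ j) (hjn : j ≤ n) : rep cs (isCartan n) w (sr ⟨j, by omega⟩) = sr ⟨n + 1 - j, by omega⟩ := by
  obtain ⟨σ, h1, h2, h3⟩ := exists_sg (cs := cs) w
  rcases id_or_rev hn hw h1 h2 h3 with h | h
  · exfalso
    have h0 : (σ (0, true)).1 = 0 := by
      by_contra hne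
      have hpos : 1 ≤ ((σ (0, true)).1 : ℕ) := by
        rcases Nat.eq_zero_or_pos ((σ (0, true)).1 : ℕ) with h4 | h4
        · exact absurd (Fin.ext h4) hne
        · exact h4
      have h5 := h ((σ (0, true)).1 : ℕ) hpos (by omega)
      have h6 := (h2 (0, true) ((σ (0, true)).1, true)).1 (by
        have : σ ((σ (0, true)).1, true) = ((σ (0, true)).1, true) := h5
        rw [this])
      exact hne h6.symm
    have hcases : σ (0, true) = (0, true) ∨ σ (0, true) = (0, false) := by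
      rcases hb : (σ (0, true)).2 with _ | _
      · right
        exact Prod.ext h0 hb
      · left
        exact Prod.ext h0 hb
    have hi : ∀ i : Fin (n + 2), i ≠ 0 → σ (i, true) = (i, true) := fun i hi0 =>
      h i (Nat.one_le_iff_ne_zero.2 fun h7 => hi0 (Fin.ext h7)) (by omega)
    rcases hcases with hc | hc
    · refine hw1 (eq_one_of_sg h3 h1 fun i => ?_)
      by_cases hi0 : i = 0
      · rw [hi0, hc]
      · exact hi i hi0
    · choose x hx using fun i : Fin (n + 2) => exists_long cs (i, true)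
      have hsum : ∀ (s : Finset (Fin (n + 2))) (g : Fin (n + 2) → Fin (n + 2) → ℤ), ee (∑ i ∈ s, g i) = ∑ i ∈ s, ee (g i) := by
        intro s g
        induction s using Finset.induction_on with
        | empty =>
          have := ee_smul (n := n) 0 0
          rw [zero_smul, zero_smul] at this
          simpa using this
        | insert b s hb ih => rw [Finset.sum_insert hb, Finset.sum_insert hb, ee_add, ih]
      have hv : ∀ k, ee (∑ i, x i) k = 2 := by
        intro k
        rw [hsum, Finset.sum_apply]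
        simp only [hx, Pi.add_apply, Finset.sum_add_distrib, wt_apply, if_true, Finset.sum_ite_eq, Finset.mem_univ]
        norm_num
      have hp : ∀ i, (4 : ℤ) ∣ pairing (A n) i (∑ i, x i) := by
        intro i
        rw [← Cf_ee]
        unfold Cf
        split_ifs
        · rw [hv, hv]; norm_num
        · rw [hv, hv]; norm_num
      obtain ⟨y, hy⟩ := inv_four (cs := cs) hp w
      have h4 := congrArg ee hy
      rw [map_sum, hsum, ee_add, ee_smul] at h4
      have h5 : ∀ i, ee (rep cs (isCartan n) w (x i)) = wt (σ (i, true)) + wt (σ (i, true)) := fun i => h3 _ _ _ (hx i)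
      have h6 : ∀ k, 4 * ee y k = - (if k = 0 then 4 else 0) := by
        intro k
        have h7 := congrFun h4 k
        rw [Finset.sum_apply, Pi.add_apply, hv, Pi.smul_apply, smul_eq_mul] at h7
        have h8 : ∑ i, ee (rep cs (isCartan n) w (x i)) k = 2 - (if k = 0 then 4 else 0) := by
          simp only [h5, Pi.add_apply, Finset.sum_add_distrib]
          have h9 : ∑ i, wt (σ (i, true)) k = 1 - (if k = 0 then 2 else 0) := by
            rw [← Finset.add_sum_erase _ _ (Finset.mem_univ (0 : Fin (n + 2))), hc]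
            have h10 : ∑ i ∈ Finset.univ.erase (0 : Fin (n + 2)), wt (σ (i, true)) k =
                ∑ i ∈ Finset.univ.erase (0 : Fin (n + 2)), (if k = i then (1 : ℤ) else 0) :=
              Finset.sum_congr rfl fun i hi' => by
                rw [hi i (Finset.ne_of_mem_erase hi'), wt_apply]
                rfl
            rw [h10, Finset.sum_ite_eq, wt_apply]
            by_cases hk : k = 0
            · simp [hk]
            · simp [hk]
          rw [h9]
          split_ifs <;> ring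
        rw [h8] at h7
        linarith
      have h7 := sum_ee_even y
      have h8 : 4 * ∑ k, ee y k = -4 := by
        rw [Finset.mul_sum, Finset.sum_congr rfl fun k _ => h6 k, Finset.sum_neg_distrib, Finset.sum_ite_eq']
        simp
      omega
  · have e := rev_of_sg (a := 1) h3 h1 h j hj hjn
    exact e

end Cfsg.Agent.H567.RIM.DComb
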