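import Cfsg.Agent.H567.RIM.DComb
import Cfsg.Agent.H491.RIM.Chain
import Cfsg.Agent.H521.RIM.Arith
import Cfsg.Agent.H908.RIM.Lift
import Cfsg.Agent.H965.XZ.PanPlus
import Cfsg.Agent.H325.RIM.Surv
import Cfsg.Agent.S0293
import Cfsg.Agent.S2096
import Cfsg.Agent.S2097

/-!
# S4816, `POmega⁺_{2m}(q)`, `q` odd, in cross characteristic (helper567)

* `exists_over_D` : a group with a root group datum of type `D_{N+2}`: over every linear character of a central subgroup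
  of `T` there is an irreducible character of degree divisible by `p`;
* `nb_plus` : `NBall p (POmega F (quadFormPlus m F))`;
* `oplus` : the row.
-/

set_option autoImplicit false
set_option linter.unusedSectionVars false

open scoped ComplexConjugate Pointwise
open Cfsg

namespace Cfsg.Agent.H567.RIM

open Cfsg.Agent.Characters CoxeterSystem Cfsg.Agent.ChevalleyStructure.CoxeterGeom Cfsg.Agent.Tits.Roots
  Cfsg.Agent.Tits.Core Cfsg.Agent.Tits.Exchange Cfsg.Agent.Nodes.Reps Cfsg.Agent.Nodes.BNOf Cfsg.Agent.Nodes.StabComb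
  Cfsg.Agent.Nodes.Bruhat Cfsg.Agent.Nodes.OppDec Cfsg.Agent.Nodes.LeviDec Cfsg.Agent.H53.HC
open Cfsg.Agent.Nodes (TypeD.M TypeD.A TypeD.isCartan)
open Cfsg.Agent.LieRecognition.BNCox (cA cA_apply)
open Cfsg.Agent.H665.RIM

theorem charDegree_of {G : Type*} [Group G] {χ : G → ℂ} {d : ℕ} (h : χ 1 = d) : charDegree χ = d := by
  unfold charDegree
  rw [h, Complex.natCast_re, Nat.floor_natCast]

section D

variable {N : ℕ} {W Y : Type*} [Group W] [Group Y] {cs : CoxeterSystem (TypeD.M N) W} {r : ℕ} {T : Subgroup Y}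
  {n' : Fin (N + 2) → Y} {X : (Fin (N + 2) → ℤ) → Subgroup Y}

/-- the chain `0, …, N` -/
def k₀ (N : ℕ) : Fin (N + 1) ↪ Fin (N + 2) := ⟨fun i => ⟨i, by omega⟩, fun i j h => Fin.ext (by simpa using congrArg Fin.val h)⟩

/-- the chain `1, …, N` -/
def k₁ (N : ℕ) : Fin N ↪ Fin (N + 2) := ⟨fun i => ⟨i + 1, by omega⟩, fun i j h => Fin.ext (by simpa using congrArg Fin.val h)⟩

theorem range_k₀ : Set.range (k₀ N) = {j : Fin (N + 2) | (j : ℕ) + 1 ≠ N + 2} := by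
  ext j
  constructor
  · rintro ⟨i, rfl⟩
    have := i.2
    show (i : ℕ) + 1 ≠ N + 2
    omega
  · intro hj
    have h1 : (j : ℕ) + 1 ≠ N + 2 := hj
    exact ⟨⟨j, by omega⟩, rfl⟩

theorem mem_range_k₀ (j : Fin (N + 2)) : j ∈ Set.range (k₀ N) ↔ j ∈ DComb.Ch N 0 := by
  rw [range_k₀]
  show (j : ℕ) + 1 ≠ N + 2 ↔ 0 ≤ (j : ℕ) ∧ (j : ℕ) ≤ N
  omega

theorem mem_range_k₁ (j : Fin (N + 2)) : j ∈ Set.range (k₁ N) ↔ j ∈ DComb.Ch N 1 := by
  constructor
  · rintro ⟨i, rfl⟩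
    have := i.2
    exact ⟨Nat.le_add_left 1 _, i.2⟩
  · rintro ⟨h1, h2⟩
    exact ⟨⟨(j : ℕ) - 1, by omega⟩, Fin.ext (Nat.sub_add_cancel h1)⟩

theorem chain_k₀ (i j : Fin (N + 1)) : TypeD.M N (k₀ N i) (k₀ N j) = cA (N + 1) i j := by
  rw [Cfsg.Agent.Nodes.TypeD.M_apply, cA_apply]
  unfold Cfsg.Agent.Nodes.TypeD.Adj Cfsg.Agent.LieRecognition.CoxClass.mA
  have hi := i.2
  have hj := j.2
  have e1 : ((k₀ N i : Fin (N + 2)) : ℕ) = i := rfl
  have e2 : ((k₀ N j : Fin (N + 2)) : ℕ) = j := rfl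
  simp only [Fin.ext_iff, e1, e2]
  split_ifs <;> omega

theorem chain_k₁ (i j : Fin N) : TypeD.M N (k₁ N i) (k₁ N j) = cA N i j := by
  rw [Cfsg.Agent.Nodes.TypeD.M_apply, cA_apply]
  unfold Cfsg.Agent.Nodes.TypeD.Adj Cfsg.Agent.LieRecognition.CoxClass.mA
  have hi := i.2
  have hj := j.2
  have e1 : ((k₁ N i : Fin (N + 2)) : ℕ) = i + 1 := rfl
  have e2 : ((k₁ N j : Fin (N + 2)) : ℕ) = j + 1 := rfl
  simp only [Fin.ext_iff, e1, e2]
  split_ifs <;> omega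

theorem exists_over_D [Finite Y] (R : RGD cs (TypeD.isCartan N) r T n' X) (hN : 2 ≤ N)
    (hG : GG cs (TypeD.isCartan N) T X = ⊤) {q : ℕ} (hq : 1 ≤ q) (hy : ∀ i, Nat.card (X (sr i)) = q) {Z : Subgroup Y}
    (hZ : Z ≤ Subgroup.center Y) (hZT : Z ≤ T) (l : Z →* ℂˣ) {p : ℕ} (hp : p.Prime)
    (hd : p ∣ (q ^ (N + 2) - 1) * ∏ i ∈ Finset.range (N + 1), (q ^ (2 * (i + 1)) - 1)) :
    ∃ χ : Y → ℂ, IsIrrCharacter Y χ ∧ (∀ z (hz : z ∈ Z), χ z = χ 1 * (l ⟨z, hz⟩ : ℂˣ)) ∧ p ∣ charDegree χ := by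
  have hW : Finite W := Cfsg.Agent.Nodes.TypeD.finite_W cs
  have : Fintype Y := Fintype.ofFinite Y
  have hwj : ∀ (J : Set (Fin (N + 2))) (w : W), w ∉ WJ cs J → w ≠ 1 := fun J w hw h1 => hw (h1 ▸ one_mem _)
  rcases Cfsg.Agent.H521.RIM.arith_D R hG hq hy hp hd with h1 | ⟨-, -, -, h4⟩
  · obtain ⟨θ, ⟨hθ, hl, hc⟩, h1', hs⟩ := Cfsg.Agent.H491.RIM.exists_chain_over R (by omega) (k₀ N) chain_k₀ ⟨0, by omega⟩
      (hy _) hZ l
    obtain ⟨χ, hχ, ⟨k, -, hk⟩, hz⟩ := Cfsg.Agent.H491.RIM.exists_irr_MJ R hG (Set.range (k₀ N)) hZ hZT l hθ hl hc (by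
      intro w g hg hw hp'
      refine hs w g hg hp' fun i => ?_
      have h5 := DComb.rev_max (cs := cs) (w := w) (fun i hi => ?_) (hwj _ w hw) i (by have := i.2; omega)
      · have e1 : (k₀ N i : Fin (N + 2)) = ⟨i, by have := i.2; omega⟩ := rfl
        have e2 : (k₀ N i.rev : Fin (N + 2)) = ⟨N - i, by omega⟩ := Fin.ext (by
          show (i.rev : ℕ) = N - i
          rw [Fin.val_rev]
          omega)
        rw [e1, e2]
        exact h5
      · obtain ⟨k, hk, e⟩ := hp'.2 i ((mem_range_k₀ i).2 hi)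
        exact ⟨k, (mem_range_k₀ k).1 hk, e⟩)
    refine ⟨χ, hχ, hz, ?_⟩
    rw [charDegree_of (d := k * ((PJ cs (TypeD.isCartan N) T X (Set.range (k₀ N))).index *
      ∏ i ∈ Finset.range (N + 1), (q ^ (i + 1) - 1))) (by rw [hk, h1']; push_cast; ring)]
    refine Dvd.dvd.mul_left ?_ _
    rw [range_k₀]
    exact h1
  · obtain ⟨θ, ⟨hθ, hl, hc⟩, h1', hs⟩ := Cfsg.Agent.H491.RIM.exists_chain_over R hN (k₁ N) chain_k₁ ⟨0, by omega⟩
      (hy _) hZ l
    obtain ⟨χ, hχ, ⟨k, -, hk⟩, hz⟩ := Cfsg.Agent.H491.RIM.exists_irr_MJ R hG (Set.range (k₁ N)) hZ hZT l hθ hl hc (by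
      intro w g hg hw hp'
      refine hs w g hg hp' fun i => ?_
      have h5 := DComb.rev_sub (cs := cs) (by omega) (w := w) (fun i hi => ?_) (hwj _ w hw) (i + 1) (by omega)
        (by have := i.2; omega)
      · have e1 : (k₁ N i : Fin (N + 2)) = ⟨i + 1, by have := i.2; omega⟩ := rfl
        have e2 : (k₁ N i.rev : Fin (N + 2)) = ⟨N + 1 - (i + 1), by omega⟩ := Fin.ext (by
          show (i.rev : ℕ) + 1 = N + 1 - (i + 1)
          rw [Fin.val_rev]
          have := i.2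
          omega)
        rw [e1, e2]
        exact h5
      · obtain ⟨k, hk, e⟩ := hp'.2 i ((mem_range_k₁ i).2 hi)
        exact ⟨k, (mem_range_k₁ k).1 hk, e⟩)
    refine ⟨χ, hχ, hz, ?_⟩
    rw [charDegree_of (d := k * ((PJ cs (TypeD.isCartan N) T X (Set.range (k₁ N))).index *
      ∏ i ∈ Finset.range N, (q ^ (i + 1) - 1))) (by rw [hk, h1']; push_cast; ring)]
    refine Dvd.dvd.mul_left (Dvd.dvd.mul_right ?_ _) _
    refine h4 _ ⟨0, by omega⟩ (by show 0 < N; omega) ?_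
    rintro ⟨i, hi⟩
    exact absurd (congrArg Fin.val hi) (Nat.succ_ne_zero _)

end D

universe u v

/-- the order of the kernel of a perfect central extension divides the order of the multiplier -/
theorem ker_dvd {S : Type u} [Group S] {A : Type v} [CommGroup A] (h : Cfsg.HasSchurMultiplier S A) {E : Type u}
    [Group E] [Finite E] (π : E →* S) (hs : Function.Surjective π) (hc : π.ker ≤ Subgroup.center E)
    (hcomm : commutator E = ⊤) : Nat.card π.ker ∣ Nat.card A := by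
  obtain ⟨f, hf⟩ := h.2 E π ⟨hs, hc, by rw [hcomm]; exact le_top⟩
  exact Subgroup.card_dvd_of_surjective f hf

/-- the kernels of the perfect central extensions of `PΩ⁺_{2m}(q)`, `q` odd, have order dividing `4` -/
theorem ker_dvd_four {F : Type} [Field F] [Fintype F] (hodd : Odd (Fintype.card F)) {m : ℕ} (hm : 4 ≤ m) {E : Type}
    [Group E] [Finite E] (π : E →* Cfsg.POmega F (Cfsg.quadFormPlus m F)) (hs : Function.Surjective π)
    (hc : π.ker ≤ Subgroup.center E) (hcomm : commutator E = ⊤) : Nat.card π.ker ∣ 4 := by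
  rcases Nat.even_or_odd m with he | ho
  · have h1 := Cfsg.Agent.S2097.result (F := F) rfl m hm he (by
      rintro ⟨-, h2⟩
      rw [h2] at hodd
      exact absurd hodd (by decide))
    refine (ker_dvd h1 π hs hc hcomm).trans ?_
    rw [Nat.card_congr Multiplicative.toAdd, Nat.card_prod, Nat.card_zmod]
    exact mul_dvd_mul (Nat.gcd_dvd_left 2 _) (Nat.gcd_dvd_left 2 _)
  · have h1 := Cfsg.Agent.S2096.result (F := F) rfl m (by
      obtain ⟨k, rfl⟩ := ho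
      omega) ho
    refine (ker_dvd h1 π hs hc hcomm).trans ?_
    rw [Nat.card_congr Multiplicative.toAdd, Nat.card_zmod]
    exact Nat.gcd_dvd_left 4 _

section

open Cfsg.Agent.Nodes Cfsg.Agent.Nodes.WittInst Cfsg.Agent.Nodes.RGDLib Cfsg.Agent.Nodes.TypeD
open Cfsg.Agent.TitsThree Cfsg.Agent.TitsThree.Siegel Cfsg.Agent.TitsThree.SiegelGen
  Cfsg.Agent.TitsThree.WittFrame Cfsg.Agent.TitsThree.WBridge Cfsg.Agent.TitsThree.WittWeyl
  Cfsg.Agent.TitsThree.FrameCN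
open QuadraticMap
open Cfsg.Agent.LieClassical Cfsg.Agent.LieClassical.OrthCore Cfsg.Agent.LieClassical.OrthTrans
open Cfsg.Agent.LieClassical.OrthSimple Cfsg.Agent.LieClassical.OrthFinite
open Cfsg.Agent.LieClassical.OrthForms
open Cfsg.Agent.TitsThree.KSideO Cfsg.Agent.TitsThree.StdData

/-- the root group datum of `PΩ⁺_{2(n+3)}(F)`: type `D`, all simple root groups of order `|F|` -/
theorem exists_rgd {F : Type} [Field F] [Finite F] (n : ℕ) {r : ℕ} [Fact r.Prime] [CharP F r] :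
    ∃ (T : Subgroup (Cfsg.POmega F (Cfsg.quadFormPlus (n + 3) F)))
      (n' : Fin (n + 1 + 2) → Cfsg.POmega F (Cfsg.quadFormPlus (n + 3) F))
      (X : (Fin (n + 1 + 2) → ℤ) → Subgroup (Cfsg.POmega F (Cfsg.quadFormPlus (n + 3) F))),
      RGD (TypeD.M (n + 1)).toCoxeterSystem (TypeD.isCartan (n + 1)) r T n' X ∧
      GG (TypeD.M (n + 1)).toCoxeterSystem (TypeD.isCartan (n + 1)) T X = ⊤ ∧
      ∀ i, Nat.card (X (sr i)) = Nat.card F := by
  rw [← coe_plusForm]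
  have hG : Good (plusForm (n + 3) F) := by
    apply good_of_finite (nondeg_plusForm (n + 3) F)
    rw [Module.finrank_fintype_fun_eq_card, Fintype.card_sum, Fintype.card_fin]
    omega
  refine ⟨_, _, _, rgdD_model (wplus (n + 3) F) hG (amb_plus _) (adm_plus _) _, ?_,
    fun i => Cfsg.Agent.H965.XZ.card_XD (wplus (n + 3) F) hG i⟩
  have h1 := G1D_eq_top (wplus (n + 3) F) (toPOmega hG) (toPOmega_surjective hG) (adm_plus _)
    (TypeD.M (n + 1)).toCoxeterSystem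
  rw [eq_top_iff, ← h1]
  exact le_sup_right

end

/-- **`PΩ⁺_{2m}(q)`, `q` odd, in cross characteristic** -/
theorem nb_plus {F : Type} [Field F] [Fintype F] (hodd : Odd (Fintype.card F)) {m : ℕ} (hm : 4 ≤ m) {p : ℕ}
    (hp : p.Prime) (hpq : ¬ p ∣ Fintype.card F) (hd : p ∣ Nat.card (Cfsg.POmega F (Cfsg.quadFormPlus m F))) :
    NBall.{0} p (Cfsg.POmega F (Cfsg.quadFormPlus m F)) := by
  intro m' hm' hpm E _ _ π hs hc hcomm hcard l hl
  have h4 := ker_dvd_four hodd hm π hs hc hcomm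
  have h0 := Cfsg.Agent.S0293.result (F := F) rfl m hm
  obtain ⟨n, rfl⟩ : ∃ n, m = n + 3 := ⟨m - 3, by omega⟩
  obtain ⟨r, hr⟩ := CharP.exists F
  have hrp : r.Prime := CharP.char_is_prime F r
  have : Fact r.Prime := ⟨hrp⟩
  have hr2 : r ≠ 2 := by
    rintro rfl
    have h2 : 2 ∣ Fintype.card F := (CharP.cast_eq_zero_iff F 2 _).1 (FiniteField.cast_card_eq_zero F)
    exact (Nat.not_even_iff_odd.2 hodd) (even_iff_two_dvd.2 h2)
  have hk : (Nat.card π.ker).Coprime r := by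
    refine Nat.Coprime.coprime_dvd_left h4 ?_
    have h5 : Nat.Coprime 2 r := (Nat.coprime_primes Nat.prime_two hrp).2 (Ne.symm hr2)
    exact (h5.mul_left h5 : Nat.Coprime (2 * 2) r)
  obtain ⟨T, n', X, R, hG, hy⟩ := exists_rgd (F := F) n (r := r)
  have : Finite (TypeD.M (n + 1)).Group := Cfsg.Agent.Nodes.TypeD.finite_W (TypeD.M (n + 1)).toCoxeterSystem
  obtain ⟨n'', R', hG', -, hy'⟩ := Cfsg.Agent.H908.RIM.lift_all hc hk hs R hG
  have hd' : p ∣ (Nat.card F ^ (n + 1 + 2) - 1) * ∏ i ∈ Finset.range (n + 1 + 1), (Nat.card F ^ (2 * (i + 1)) - 1) := by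
    rw [Nat.card_eq_fintype_card]
    have h6 : p ∣ Fintype.card F ^ ((n + 3) * (n + 3 - 1)) * ((Fintype.card F ^ (n + 3) - 1) *
        ∏ i ∈ Finset.range (n + 3 - 1), (Fintype.card F ^ (2 * (i + 1)) - 1)) := by
      rw [← mul_assoc, ← h0]
      exact Dvd.dvd.mul_left hd _
    exact (hp.dvd_mul.1 h6).resolve_left fun h7 => hpq (hp.dvd_of_dvd_pow h7)
  obtain ⟨χ, hχ, hz, hdvd⟩ := exists_over_D R' (by omega) hG' (q := Nat.card F) (Nat.one_le_iff_ne_zero.2 Nat.card_pos.ne')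
    (fun i => (hy' i).trans (hy i)) hc Cfsg.Agent.H908.RIM.ker_le_T l hp hd'
  exact ⟨χ, hχ, fun z => hz z z.2, hdvd⟩

/-- **The row `oplus` (odd `q`) of S4816.** -/
theorem oplus (p m q : ℕ) (hp : p.Prime) (_ : p ≠ 2) (hpq : ¬ p ∣ q) (hq : Odd q) :
    Cfsg.Agent.H325.RIM.NBRow p (.oplus m q) := by
  intro S _ _ hg hd
  obtain ⟨F, i1, i2, h1, ⟨e⟩⟩ := hg.real
  have hm : 4 ≤ m := hg.cond.1
  subst h1
  refine Cfsg.Agent.H325.RIM.NBall.congr e (nb_plus hq hm hp hpq ?_)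
  rw [← Nat.card_congr e.toEquiv]
  exact hd

end Cfsg.Agent.H567.RIM
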